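import Groth.Agent.Pi1.H611.CountHom
import Mathlib.Data.List.OfFn
import Mathlib.Data.List.FinRange
import Mathlib.Data.List.Sort
import Mathlib.Algebra.BigOperators.Group.List.Basic
import Mathlib.Data.Finset.Sort
import Mathlib.Topology.Algebra.Group.Basic

/-!
# The universal property of surface generators of a finite index subgroup of a free group

`Γ` is free of rank `m` and acts transitively on a set with `d` elements, `H` is a stabiliser.  If
`H` is generated by `s_i, t_i` (`i < g`) and `z_j` (`j < n`, `n ≥ 1`) with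
`∏ [s_i, t_i] * ∏ z_j = 1` and if `2 g - 2 + n = d (m - 1)`, then this relation is the only one
between the generators, as far as homomorphisms to finite groups are concerned.
-/

set_option autoImplicit false

namespace Groth.Agent.Pi1.H611.Universal

open MulAction CountHom

/-- The product of commutators. -/
def comm {G : Type*} [Group G] {g : ℕ} (a b : Fin g → G) : G :=
  (List.ofFn fun i => a i * b i * (a i)⁻¹ * (b i)⁻¹).prod

lemma map_comm {G G' : Type*} [Group G] [Group G'] (θ : G →* G') {g : ℕ} (a b : Fin g → G) :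
    θ (comm a b) = comm (fun i => θ (a i)) (fun i => θ (b i)) := by
  rw [comm, comm, map_list_prod, List.map_ofFn]
  simp [Function.comp_def]

lemma map_prod_ofFn {G G' : Type*} [Group G] [Group G'] (θ : G →* G') {g : ℕ} (a : Fin g → G) :
    θ (List.ofFn a).prod = (List.ofFn fun i => θ (a i)).prod := by
  rw [map_list_prod, List.map_ofFn]
  rfl

/-- The last entry is determined by the relation. -/
lemma last_eq {G : Type*} [Group G] {n : ℕ} (c : G) (z : Fin (n + 1) → G)
    (h : c * (List.ofFn z).prod = 1) :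
    z (Fin.last n) = (c * (List.ofFn fun i => z (Fin.castSucc i)).prod)⁻¹ := by
  rw [List.ofFn_succ', List.concat_eq_append, List.prod_append, List.prod_singleton,
    ← mul_assoc] at h
  exact eq_inv_of_mul_eq_one_right h

variable {Γ F : Type*} [Group Γ] [MulAction Γ F]

/-- The universal property for homomorphisms to finite groups. -/
theorem universal {ι : Type*} [Finite ι] (β : FreeGroupBasis ι Γ) [Finite F]
    [IsPretransitive Γ F] (o : F) {g n : ℕ} (s t : Fin g → stabilizer Γ o)
    (z : Fin n → stabilizer Γ o) (hn : n ≠ 0)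
    (hrel : (List.ofFn fun i => s i * t i * (s i)⁻¹ * (t i)⁻¹).prod * (List.ofFn z).prod = 1)
    (hgen : Subgroup.closure (Set.range s ∪ Set.range t ∪ Set.range z) = ⊤)
    (hcount : 2 * g + n + Nat.card F = Nat.card F * Nat.card ι + 2)
    (G : Type*) [Group G] [Finite G] (a b : Fin g → G) (e : Fin n → G)
    (hab : (List.ofFn fun i => a i * b i * (a i)⁻¹ * (b i)⁻¹).prod * (List.ofFn e).prod = 1) :
    ∃! θ : stabilizer Γ o →* G,
      (∀ i, θ (s i) = a i) ∧ (∀ i, θ (t i) = b i) ∧ ∀ j, θ (z j) = e j := by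
  classical
  obtain ⟨n, rfl⟩ : ∃ n', n = n' + 1 := Nat.exists_eq_succ_of_ne_zero hn
  -- equality of homomorphisms agreeing on all generators but the last one
  have key : ∀ θ θ' : stabilizer Γ o →* G, (∀ i, θ (s i) = θ' (s i)) → (∀ i, θ (t i) = θ' (t i)) →
      (∀ j : Fin n, θ (z (Fin.castSucc j)) = θ' (z (Fin.castSucc j))) → θ = θ' := by
    intro θ θ' h1 h2 h3
    have hz := last_eq (comm s t) z hrel
    have h4 : θ (z (Fin.last n)) = θ' (z (Fin.last n)) := by
      rw [hz, map_inv, map_inv, map_mul, map_mul, map_comm, map_comm, map_prod_ofFn,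
        map_prod_ofFn]
      simp only [h1, h2, h3]
    refine MonoidHom.eq_of_eqOn_dense hgen ?_
    rintro x ((⟨i, rfl⟩ | ⟨i, rfl⟩) | ⟨i, rfl⟩)
    · exact h1 i
    · exact h2 i
    · refine Fin.lastCases h4 (fun j => h3 j) i
  -- the restriction map
  let R : (stabilizer Γ o →* G) → ((Fin g → G) × (Fin g → G)) × (Fin n → G) := fun θ =>
    ((fun i => θ (s i), fun i => θ (t i)), fun j => θ (z (Fin.castSucc j)))
  have hinj : Function.Injective R := by
    intro θ θ' h
    have h1 := congrArg (fun p => p.1.1) h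
    have h2 := congrArg (fun p => p.1.2) h
    have h3 := congrArg (fun p => p.2) h
    exact key θ θ' (fun i => congrFun h1 i) (fun i => congrFun h2 i) (fun i => congrFun h3 i)
  have : Finite (((Fin g → G) × (Fin g → G)) × (Fin n → G)) := inferInstance
  have hcard : Nat.card (stabilizer Γ o →* G) =
      Nat.card (((Fin g → G) × (Fin g → G)) × (Fin n → G)) := by
    have h1 := card_hom β o (G := G)
    have h2 : Nat.card F * Nat.card ι + 1 = (2 * g + n) + Nat.card F := by omega
    rw [h2, pow_add] at h1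
    have h3 : 0 < Nat.card G ^ Nat.card F := pow_pos Nat.card_pos _
    have h4 := Nat.eq_of_mul_eq_mul_right h3 h1
    rw [h4, Nat.card_prod, Nat.card_prod, Nat.card_fun, Nat.card_fun, Nat.card_fin, Nat.card_fin,
      ← pow_add, ← pow_add, two_mul]
  have hbij : Function.Bijective R := by
    have : Finite (stabilizer Γ o →* G) := Finite.of_injective R hinj
    exact (Nat.bijective_iff_injective_and_card R).2 ⟨hinj, hcard⟩
  obtain ⟨θ, hθ⟩ := hbij.2 ((a, b), fun j => e (Fin.castSucc j))
  have h1 : ∀ i, θ (s i) = a i := fun i => congrFun (congrArg (fun p => p.1.1) hθ) i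
  have h2 : ∀ i, θ (t i) = b i := fun i => congrFun (congrArg (fun p => p.1.2) hθ) i
  have h3 : ∀ j : Fin n, θ (z (Fin.castSucc j)) = e (Fin.castSucc j) :=
    fun i => congrFun (congrArg (fun p => p.2) hθ) i
  refine ⟨θ, ⟨h1, h2, fun j => ?_⟩, fun θ' h' => ?_⟩
  · refine Fin.lastCases ?_ (fun j => h3 j) j
    rw [last_eq (comm s t) z hrel, last_eq (comm a b) e hab, map_inv, map_mul, map_comm,
      map_prod_ofFn]
    simp only [h1, h2, h3]
  · exact key θ' θ (fun i => by rw [h'.1, h1]) (fun i => by rw [h'.2.1, h2])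
      (fun i => by rw [h'.2.2, h3])

section Sub

variable {G : Type*} [Group G]

lemma prod_map_filter {ι : Type*} (e : ι → G) (p : ι → Prop) [DecidablePred p] (l : List ι)
    (h : ∀ j ∈ l, ¬ p j → e j = 1) : ((l.filter p).map e).prod = (l.map e).prod := by
  induction l with
  | nil => rfl
  | cons j l ih =>
    have ih' := ih fun i hi => h i (by simp [hi])
    by_cases hj : p j
    · simp [hj, ih']
    · simp [hj, ih', h j (by simp) hj]

/-- Entries equal to `1` may be dropped from an ordered product. -/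
lemma prod_ofFn_comp {n n' : ℕ} (ν : Fin n' → Fin n) (hν : StrictMono ν) (e : Fin n → G)
    (h : ∀ j, j ∉ Set.range ν → e j = 1) :
    (List.ofFn fun i => e (ν i)).prod = (List.ofFn e).prod := by
  classical
  have h1 : (List.finRange n).filter (fun j => j ∈ Set.range ν) = (List.finRange n').map ν := by
    refine List.Perm.eq_of_pairwise (le := (· < ·)) (fun a b _ _ hab hba => absurd hab hba.not_gt)
      ((List.pairwise_lt_finRange n).filter _) ?_ ?_
    · rw [List.pairwise_map]
      exact (List.pairwise_lt_finRange n').imp fun hab => hν hab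
    · rw [List.perm_ext_iff_of_nodup ((List.nodup_finRange n).filter _)
        ((List.nodup_finRange n').map hν.injective)]
      intro j
      simp
  have h2 : (List.ofFn e) = (List.finRange n).map e := List.ofFn_eq_map
  have h3 : (List.ofFn fun i => e (ν i)) = ((List.finRange n').map ν).map e := by
    rw [List.map_map]; exact List.ofFn_eq_map
  rw [h2, h3, ← h1]
  exact prod_map_filter e _ _ fun j _ hj => h j hj

end Sub

/-- Existence of an increasing enumeration of a set of indices. -/
lemma exists_enum {n : ℕ} (K : Set (Fin n)) :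
    ∃ (n' : ℕ) (ν : Fin n' → Fin n), StrictMono ν ∧ Set.range ν = K ∧ n' = Nat.card K := by
  classical
  let S : Finset (Fin n) := Finset.univ.filter (· ∈ K)
  have hS : (S : Set (Fin n)) = K := by ext; simp [S]
  refine ⟨S.card, S.orderEmbOfFin rfl, (S.orderEmbOfFin rfl).strictMono, ?_, ?_⟩
  · rw [Finset.range_orderEmbOfFin, hS]
  · rw [← hS]; simp

/-- The universal property after killing some of the elements `z_j`. -/
theorem universal_kill {ι : Type*} [Finite ι] (β : FreeGroupBasis ι Γ) [Finite F]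
    [IsPretransitive Γ F] (o : F) {g n : ℕ} (s t : Fin g → stabilizer Γ o)
    (z : Fin n → stabilizer Γ o) (hn : n ≠ 0)
    (hrel : (List.ofFn fun i => s i * t i * (s i)⁻¹ * (t i)⁻¹).prod * (List.ofFn z).prod = 1)
    (hgen : Subgroup.closure (Set.range s ∪ Set.range t ∪ Set.range z) = ⊤)
    (hcount : 2 * g + n + Nat.card F = Nat.card F * Nat.card ι + 2)
    {n' : ℕ} (ν : Fin n' → Fin n) (hν : StrictMono ν)
    (G : Type*) [Group G] [Finite G] (a b : Fin g → G) (e : Fin n' → G)
    (hab : (List.ofFn fun i => a i * b i * (a i)⁻¹ * (b i)⁻¹).prod * (List.ofFn e).prod = 1) :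
    ∃! θ : stabilizer Γ o →* G,
      (∀ i, θ (s i) = a i) ∧ (∀ i, θ (t i) = b i) ∧ (∀ j, θ (z (ν j)) = e j) ∧
        ∀ j, j ∉ Set.range ν → θ (z j) = 1 := by
  classical
  let e' : Fin n → G := fun j => if h : j ∈ Set.range ν then e h.choose else 1
  have he' : ∀ j, e' (ν j) = e j := by
    intro j
    have h : ν j ∈ Set.range ν := ⟨j, rfl⟩
    simp only [e', dif_pos h]
    rw [hν.injective h.choose_spec]
  have he1 : ∀ j, j ∉ Set.range ν → e' j = 1 := by
    intro j hj
    simp only [e', dif_neg hj]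
  have h1 : (List.ofFn e').prod = (List.ofFn e).prod := by
    rw [← prod_ofFn_comp ν hν e' he1]
    simp only [he']
  obtain ⟨θ, ⟨h2, h3, h4⟩, hu⟩ := universal β o s t z hn hrel hgen hcount G a b e' (by rw [h1, hab])
  refine ⟨θ, ⟨h2, h3, fun j => by rw [h4, he'], fun j hj => by rw [h4, he1 j hj]⟩, ?_⟩
  rintro θ' ⟨h5, h6, h7, h8⟩
  refine hu θ' ⟨h5, h6, fun j => ?_⟩
  by_cases hj : j ∈ Set.range ν
  · obtain ⟨i, rfl⟩ := hj
    rw [h7, he']
  · rw [h8 j hj, he1 j hj]

/-- Transfer to a topological group receiving the stabiliser with dense image, such that all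
homomorphisms from the stabiliser to finite groups which kill the chosen `z_j` extend. -/
theorem transfer {ι : Type*} [Finite ι] (β : FreeGroupBasis ι Γ) [Finite F]
    [IsPretransitive Γ F] (o : F) {g n : ℕ} (s t : Fin g → stabilizer Γ o)
    (z : Fin n → stabilizer Γ o) (hn : n ≠ 0)
    (hrel : (List.ofFn fun i => s i * t i * (s i)⁻¹ * (t i)⁻¹).prod * (List.ofFn z).prod = 1)
    (hgen : Subgroup.closure (Set.range s ∪ Set.range t ∪ Set.range z) = ⊤)
    (hcount : 2 * g + n + Nat.card F = Nat.card F * Nat.card ι + 2)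
    {n' : ℕ} (ν : Fin n' → Fin n) (hν : StrictMono ν)
    {P : Type*} [Group P] [TopologicalSpace P] [IsTopologicalGroup P]
    (ψ : stabilizer Γ o →* P) (hd : DenseRange ψ) (hk : ∀ j, j ∉ Set.range ν → ψ (z j) = 1)
    (hext : ∀ (G : Type) [Group G] [Finite G] (θ : stabilizer Γ o →* G),
      (∀ j, j ∉ Set.range ν → θ (z j) = 1) →
      ∃ θ' : P →* G, IsOpen (θ'.ker : Set P) ∧ θ'.comp ψ = θ) :
    ∃ (xs ys : Fin g → P) (σ : Fin n' → P),
      (List.ofFn fun i : Fin g => xs i * ys i * (xs i)⁻¹ * (ys i)⁻¹).prod *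
        (List.ofFn σ).prod = 1 ∧
      ∀ (G : Type) [Group G] [Finite G] (a b : Fin g → G) (c : Fin n' → G),
        (List.ofFn fun i : Fin g => a i * b i * (a i)⁻¹ * (b i)⁻¹).prod *
          (List.ofFn c).prod = 1 →
        ∃! θ : P →* G, IsOpen (θ.ker : Set P) ∧
          (∀ i, θ (xs i) = a i) ∧ (∀ i, θ (ys i) = b i) ∧ (∀ j, θ (σ j) = c j) := by
  refine ⟨fun i => ψ (s i), fun i => ψ (t i), fun j => ψ (z (ν j)), ?_, ?_⟩
  · have h1 := congrArg ψ hrel
    have h2 := map_comm ψ s t
    rw [comm, comm] at h2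
    rw [map_one, map_mul, h2, map_prod_ofFn] at h1
    rw [prod_ofFn_comp ν hν (fun j => ψ (z j)) hk, h1]
  · intro G _ _ a b c hab
    obtain ⟨θ, ⟨h1, h2, h3, h4⟩, hu⟩ :=
      universal_kill β o s t z hn hrel hgen hcount ν hν G a b c hab
    obtain ⟨θ', ho, hθ'⟩ := hext G θ h4
    have hθ : ∀ x, θ' (ψ x) = θ x := fun x => DFunLike.congr_fun hθ' x
    refine ⟨θ', ⟨ho, fun i => by rw [hθ, h1], fun i => by rw [hθ, h2],
      fun j => by rw [hθ, h3]⟩, ?_⟩
    rintro θ'' ⟨ho', h5, h6, h7⟩
    have h8 : θ''.comp ψ = θ := hu _ ⟨h5, h6, h7, fun j hj => by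
      rw [MonoidHom.comp_apply, hk j hj, map_one]⟩
    -- two continuous homomorphisms agreeing on a dense subgroup
    ext x
    let K : Subgroup P := θ''.ker ⊓ θ'.ker
    have hK : IsOpen (K : Set P) := ho'.inter ho
    have hx : IsOpen ((fun y => x⁻¹ * y) ⁻¹' (K : Set P)) :=
      hK.preimage (continuous_const_mul x⁻¹)
    obtain ⟨y, hy⟩ := hd.exists_mem_open hx ⟨x, by
      show x⁻¹ * x ∈ K
      rw [inv_mul_cancel]; exact K.one_mem⟩
    have hy1 : θ'' (x⁻¹ * ψ y) = 1 := (Subgroup.mem_inf.1 hy).1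
    have hy2 : θ' (x⁻¹ * ψ y) = 1 := (Subgroup.mem_inf.1 hy).2
    rw [map_mul, map_inv, inv_mul_eq_one] at hy1 hy2
    rw [hy1, hy2, hθ]
    exact DFunLike.congr_fun h8 y

end Groth.Agent.Pi1.H611.Universal
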