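import Mathlib.RingTheory.Smooth.IntegralClosure
import Mathlib.RingTheory.Etale.Field
import Mathlib.RingTheory.Etale.Basic
import Mathlib.RingTheory.Smooth.Flat
import Mathlib.RingTheory.DedekindDomain.IntegralClosure

/-!
# The integral closure of a Dedekind domain in an étale algebra is a product of Dedekind domains
-/

set_option autoImplicit false

open TensorProduct

universe u v w

noncomputable section

namespace Groth.Agent.Pi1.H611.ChartDec

/-- Integral elements of `K ⊗ C`, `C` étale over the normal domain `R`, `K = Frac R`, come from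
`C`. -/
theorem exists_of_isIntegral (R : Type*) [CommRing R] [IsDomain R] [IsIntegrallyClosed R]
    (C : Type*) [CommRing C] [Algebra R C] [Algebra.Etale R C]
    (K : Type*) [Field K] [Algebra R K] [IsFractionRing R K]
    (z : K ⊗[R] C) (hz : IsIntegral R z) : ∃ c : C, (1 : K) ⊗ₜ[R] c = z := by
  have hbij := _root_.TensorProduct.toIntegralClosure_bijective_of_smooth (R := R) (S := C)
    (B := K)
  let s := Algebra.TensorProduct.comm R K C
  have h1 : IsIntegral C (s z) := (hz.map s.toAlgHom).tower_top
  obtain ⟨w, hw⟩ := hbij.2 ⟨s z, h1⟩
  have h2 : ∀ w : C ⊗[R] integralClosure R K, ∃ c : C,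
      (TensorProduct.toIntegralClosure R C K w : C ⊗[R] K) = c ⊗ₜ 1 := by
    intro w
    induction w with
    | zero => exact ⟨0, by simp⟩
    | add x y hx hy =>
      obtain ⟨a, ha⟩ := hx
      obtain ⟨b, hb⟩ := hy
      refine ⟨a + b, ?_⟩
      rw [map_add, TensorProduct.add_tmul, ← ha, ← hb]
      rfl
    | tmul c k =>
      obtain ⟨r, hr⟩ := IsIntegrallyClosed.isIntegral_iff.1 k.2
      refine ⟨r • c, ?_⟩
      change c ⊗ₜ[R] (k : K) = _
      rw [← hr, TensorProduct.smul_tmul, Algebra.algebraMap_eq_smul_one]
  obtain ⟨c, hc⟩ := h2 w
  refine ⟨c, s.injective ?_⟩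
  rw [Algebra.TensorProduct.comm_tmul, ← hc, hw]

/-- The integral closure of a Dedekind domain `R` in an étale `R`-algebra `C` is a finite product
of Dedekind domains finite over `R`. -/
theorem exists_decomp (R : Type w) [CommRing R] [IsDedekindDomain R]
    (C : Type u) [CommRing C] [Algebra R C] [Algebra.Etale R C]
    (M : Type v) [CommRing M] [Algebra R M] [Algebra M C] [IsScalarTower R M C]
    [IsIntegralClosure M R C] :
    ∃ (I : Type (max u w)) (_ : Finite I) (D : I → Type (max u w)) (_ : ∀ i, CommRing (D i))
      (_ : ∀ i, IsDedekindDomain (D i)) (_ : ∀ i, Algebra R (D i)) (_ : M ≃ₐ[R] Π i, D i),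
      ∀ i, Module.Finite R (D i) ∧ Function.Injective (algebraMap R (D i)) := by
  let K := FractionRing R
  obtain ⟨I, hI, A, hA1, hA2, e, hA3⟩ :=
    (Algebra.Etale.iff_exists_algEquiv_prod K (K ⊗[R] C)).1 inferInstance
  let _ (i : I) : Algebra R (A i) := ((algebraMap K (A i)).comp (algebraMap R K)).toAlgebra
  have hst : ∀ i, IsScalarTower R K (A i) := fun i => IsScalarTower.of_algebraMap_eq fun _ => rfl
  have hfin : ∀ i, FiniteDimensional K (A i) := fun i => (hA3 i).1
  have hsep : ∀ i, Algebra.IsSeparable K (A i) := fun i => (hA3 i).2
  let φ : C →ₐ[R] Π i, A i :=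
    (e.toAlgHom.restrictScalars R).comp (Algebra.TensorProduct.includeRight)
  have hφ : ∀ c, φ c = e (1 ⊗ₜ c) := fun _ => rfl
  have hφinj : Function.Injective φ := by
    intro a b hab
    have h1 : (1 : K) ⊗ₜ[R] a = (1 : K) ⊗ₜ[R] b := e.injective hab
    have h2 : Function.Injective (fun c : C => (1 : K) ⊗ₜ[R] c) :=
      Algebra.TensorProduct.includeRight_injective (IsFractionRing.injective R K)
    exact h2 h1
  have hint : ∀ (m : M) i, IsIntegral R (φ (algebraMap M C m) i) := by
    intro m i
    have h1 : IsIntegral R (algebraMap M C m) := IsIntegralClosure.isIntegral_iff.2 ⟨m, rfl⟩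
    exact (h1.map φ).map (Pi.evalAlgHom R A i)
  let ψ : M →ₐ[R] Π i, integralClosure R (A i) :=
    { toFun := fun m i => ⟨φ (algebraMap M C m) i, hint m i⟩
      map_one' := by funext i; apply Subtype.ext; simp
      map_mul' := fun a b => by funext i; apply Subtype.ext; simp
      map_zero' := by funext i; apply Subtype.ext; simp
      map_add' := fun a b => by funext i; apply Subtype.ext; simp
      commutes' := fun r => by
        funext i; apply Subtype.ext
        change φ (algebraMap M C (algebraMap R M r)) i = algebraMap R (A i) r
        rw [← IsScalarTower.algebraMap_apply, AlgHom.commutes]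
        rfl }
  have hψ : Function.Bijective ψ := by
    constructor
    · intro a b hab
      apply IsIntegralClosure.algebraMap_injective M R C
      apply hφinj
      funext i
      exact congrArg Subtype.val (congrFun hab i)
    · intro d
      have hfinD : ∀ i, Module.Finite R (integralClosure R (A i)) := fun i =>
        IsIntegralClosure.finite R K (A i) (integralClosure R (A i))
      have hd : IsIntegral R (fun i => (d i : A i)) := by
        have h1 : IsIntegral R d := Algebra.IsIntegral.isIntegral d
        let g : (Π i, integralClosure R (A i)) →ₐ[R] Π i, A i :=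
          { toFun := fun d i => (d i : A i)
            map_one' := rfl
            map_mul' := fun a b => rfl
            map_zero' := rfl
            map_add' := fun a b => rfl
            commutes' := fun r => rfl }
        exact h1.map g
      obtain ⟨c, hc⟩ := exists_of_isIntegral R C K (e.symm fun i => (d i : A i))
        (hd.map (e.symm.toAlgHom.restrictScalars R))
      have hφc : φ c = fun i => (d i : A i) := by
        rw [hφ, hc, e.apply_symm_apply]
      have hcint : IsIntegral R c := by
        rw [← isIntegral_algHom_iff φ hφinj, hφc]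
        exact hd
      obtain ⟨m, hm⟩ := (IsIntegralClosure.isIntegral_iff (A := M)).1 hcint
      refine ⟨m, ?_⟩
      funext i
      apply Subtype.ext
      change φ (algebraMap M C m) i = d i
      rw [hm, hφc]
  refine ⟨I, hI, fun i => integralClosure R (A i), fun i => inferInstance, fun i => ?_,
    fun i => inferInstance, AlgEquiv.ofBijective ψ hψ, fun i => ⟨?_, ?_⟩⟩
  · exact integralClosure.isDedekindDomain R K (A i)
  · exact IsIntegralClosure.finite R K (A i) (integralClosure R (A i))
  · have h1 : Function.Injective (algebraMap R (A i)) :=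
      (algebraMap K (A i)).injective.comp (IsFractionRing.injective R K)
    exact fun a b hab => h1 (congrArg Subtype.val hab)

end Groth.Agent.Pi1.H611.ChartDec
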