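import Groth.Agent.Pi1.H611.ChartEt
import Mathlib.RingTheory.Smooth.Fiber
import Mathlib.RingTheory.Unramified.LocalRing
import Mathlib.RingTheory.Flat.TorsionFree
import Mathlib.RingTheory.DedekindDomain.Dvr
import Mathlib.RingTheory.DedekindDomain.Ideal.Lemmas

/-!
# Charts on the complex points of a Dedekind algebra (any universe)
-/

set_option autoImplicit false

open Topology Filter Polynomial

noncomputable section

namespace Groth.Agent.Pi1.H611.ChartDed

open Groth.Agent.Pi1.H387.Pts

variable {D : Type*} [CommRing D] [IsDedekindDomain D] [Algebra ℂ D] [Algebra.FiniteType ℂ D]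

/-- A Dedekind `ℂ`-algebra of finite type has a chart at every point with nonzero kernel. -/
theorem exists_chart (x : Pts D) (hx : ∃ d : D, d ≠ 0 ∧ x d = 0) :
    ∃ ψ : OpenPartialHomeomorph (Pts D) ℂ, x ∈ ψ.source := by
  let q : Ideal D := RingHom.ker ((x : D →ₐ[ℂ] ℂ) : D →+* ℂ)
  have hqx : ∀ d, d ∈ q ↔ x d = 0 := fun d => Iff.rfl
  have hsurj : Function.Surjective ((x : D →ₐ[ℂ] ℂ) : D →+* ℂ) := fun c =>
    ⟨algebraMap ℂ D c, AlgHomClass.commutes x c⟩
  have hqm : q.IsMaximal := RingHom.ker_isMaximal_of_surjective _ hsurj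
  have hqp : q.IsPrime := hqm.isPrime
  have hq0 : q ≠ ⊥ := by
    obtain ⟨d, hd, hd'⟩ := hx
    intro h
    exact hd (by rwa [← hqx, h] at hd')
  obtain ⟨y, hy, hy2⟩ := Ideal.exists_mem_pow_notMem_pow_succ q hq0 hqp.ne_top 1
  rw [pow_one] at hy
  let _ : Algebra ℂ[X] D := (aeval y : ℂ[X] →ₐ[ℂ] D).toRingHom.toAlgebra
  have hst : IsScalarTower ℂ ℂ[X] D := IsScalarTower.of_algebraMap_eq fun c => by
    change _ = (aeval y) (algebraMap ℂ ℂ[X] c)
    rw [AlgHom.commutes]
  have hX : algebraMap ℂ[X] D X = y := aeval_X y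
  have hinj : Function.Injective (algebraMap ℂ[X] D) := by
    rw [injective_iff_map_eq_zero]
    intro p hp
    by_contra hp0
    have hint : IsAlgebraic ℂ y := ⟨p, hp0, hp⟩
    have h1 : ∃ c : ℂ, algebraMap ℂ D c = y := by
      have h2 : IsIntegral ℂ y := hint.isIntegral
      have : IsIntegral ℂ y → ∃ c : ℂ, algebraMap ℂ D c = y := by
        intro h3
        obtain ⟨c, hc⟩ := IsAlgClosed.exists_root (minpoly ℂ y)
          (minpoly.degree_pos h3).ne'
        refine ⟨c, ?_⟩
        have h4 : minpoly ℂ y = X - C c := by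
          have h5 : Irreducible (minpoly ℂ y) := minpoly.irreducible h3
          have h6 : (X - C c) ∣ minpoly ℂ y := dvd_iff_isRoot.2 hc
          exact (eq_of_monic_of_associated (minpoly.monic h3) (monic_X_sub_C c)
            ((irreducible_X_sub_C c).associated_of_dvd h5 h6).symm)
        have h7 := minpoly.aeval ℂ y
        rw [h4, map_sub, aeval_X, aeval_C, sub_eq_zero] at h7
        exact h7.symm
      exact this h2
    obtain ⟨c, rfl⟩ := h1
    have h2 : x (algebraMap ℂ D c) = 0 := hy
    have h3 : x (algebraMap ℂ D c) = c := AlgHomClass.commutes x c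
    rw [h3] at h2
    rw [h2, map_zero] at hy2
    exact hy2 (zero_mem _)
  have hflat : Module.Flat ℂ[X] D := by
    have : Module.IsTorsionFree ℂ[X] D := by
      have := (faithfulSMul_iff_algebraMap_injective ℂ[X] D).2 hinj
      infer_instance
    infer_instance
  have hft : Algebra.FiniteType ℂ[X] D := Algebra.FiniteType.of_restrictScalars_finiteType ℂ ℂ[X] D
  have hfp : Algebra.FinitePresentation ℂ[X] D := Algebra.FinitePresentation.of_finiteType.1 hft
  -- unramified at `q`
  have hunr : Algebra.IsUnramifiedAt ℂ[X] q := by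
    let p : Ideal ℂ[X] := q.under ℂ[X]
    have : p.IsPrime := inferInstance
    have : q.LiesOver p := ⟨rfl⟩
    let _ : Algebra (Localization.AtPrime p) (Localization.AtPrime q) :=
      Localization.AtPrime.algebraOfLiesOver p q
    rw [Algebra.isUnramifiedAt_iff_map_eq ℂ[X] p q]
    constructor
    · have hpm : p.IsMaximal := by
        have h1 : p = RingHom.ker (((x : D →ₐ[ℂ] ℂ) : D →+* ℂ).comp (algebraMap ℂ[X] D)) :=
          Ideal.ext fun r => Iff.rfl
        rw [h1]
        refine RingHom.ker_isMaximal_of_surjective _ fun c => ⟨algebraMap ℂ ℂ[X] c, ?_⟩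
        rw [RingHom.comp_apply, ← IsScalarTower.algebraMap_apply]
        exact AlgHomClass.commutes x c
      rw [Algebra.isSeparable_residueField_iff]
      refine ⟨fun z => ?_⟩
      obtain ⟨d, rfl⟩ := Ideal.Quotient.mk_surjective z
      have h1 : Ideal.Quotient.mk q d =
          algebraMap (ℂ[X] ⧸ p) (D ⧸ q) (Ideal.Quotient.mk p (C (x d))) := by
        change _ = Ideal.Quotient.mk q (algebraMap ℂ[X] D (C (x d)))
        rw [Ideal.Quotient.eq, hqx]
        have h2 : algebraMap ℂ[X] D (C (x d)) = algebraMap ℂ D (x d) :=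
          (IsScalarTower.algebraMap_apply ℂ ℂ[X] D (x d)).symm
        rw [h2, map_sub, AlgHomClass.commutes]
        exact sub_self _
      rw [h1]
      let _ : Field (ℂ[X] ⧸ p) := Ideal.Quotient.field p
      let _ : Field (D ⧸ q) := Ideal.Quotient.field q
      exact isSeparable_algebraMap (K := D ⧸ q) (Ideal.Quotient.mk p (C (x d)))
    · have hXp : X ∈ p := by
        change algebraMap ℂ[X] D X ∈ q
        rw [hX]
        exact hy
      have h1 : Ideal.span {y} ⊔ q ^ 2 = q := by
        have h2 := Ideal.eq_prime_pow_of_succ_lt_of_le (P := q) (I := Ideal.span {y} ⊔ q ^ 2) hq0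
          (i := 1) (lt_of_le_of_ne le_sup_right fun h => hy2 ?_) ?_
        · rwa [pow_one] at h2
        · rw [h]
          exact Ideal.mem_sup_left (Ideal.mem_span_singleton_self y)
        · rw [pow_one]
          refine sup_le ((Ideal.span_singleton_le_iff_mem _).2 hy) (Ideal.pow_le_self two_ne_zero)
      refine le_antisymm ?_ ?_
      · rw [← Localization.AtPrime.map_eq_maximalIdeal]
        rw [IsScalarTower.algebraMap_eq ℂ[X] D (Localization.AtPrime q), ← Ideal.map_map]
        exact Ideal.map_mono (Ideal.map_le_iff_le_comap.2 le_rfl)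
      · refine Submodule.le_of_le_smul_of_le_jacobson_bot (I := IsLocalRing.maximalIdeal _)
          (IsNoetherian.noetherian _) (IsLocalRing.maximalIdeal_le_jacobson _) ?_
        have h3 : IsLocalRing.maximalIdeal (Localization.AtPrime q) =
            (Ideal.span {y} ⊔ q ^ 2).map (algebraMap D (Localization.AtPrime q)) :=
          (Localization.AtPrime.map_eq_maximalIdeal).symm.trans
            (congrArg (Ideal.map (algebraMap D (Localization.AtPrime q))) h1.symm)
        refine h3.le.trans ?_
        rw [Ideal.map_sup]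
        refine sup_le_sup ?_ ?_
        · rw [Ideal.map_span, Set.image_singleton, Ideal.span_singleton_le_iff_mem, ← hX,
            ← IsScalarTower.algebraMap_apply]
          exact Ideal.mem_map_of_mem _ hXp
        · rw [Ideal.map_pow, Localization.AtPrime.map_eq_maximalIdeal, pow_two]
          exact le_rfl
  have het : Algebra.IsEtaleAt ℂ[X] q := Algebra.IsEtaleAt.of_isUnramifiedAt_of_flat q
  obtain ⟨ψ, h1, -⟩ := ChartEt.exists_chart (A := ℂ[X]) x q (fun d => (hqx d).symm)
  refine ⟨ψ.trans line.toOpenPartialHomeomorph, ?_⟩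
  rw [OpenPartialHomeomorph.trans_source]
  exact ⟨h1, trivial⟩

end Groth.Agent.Pi1.H611.ChartDed
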