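import Groth.Agent.Pi1.H387.PtsCov
import Mathlib.RingTheory.Unramified.LocalStructure
import Mathlib.RingTheory.Etale.Locus
import Mathlib.Topology.OpenPartialHomeomorph.IsImage

/-!
# Étale algebras give local homeomorphisms on complex points (any universe)
-/

set_option autoImplicit false

open Topology Filter Polynomial

noncomputable section

namespace Groth.Agent.Pi1.H611.ChartEt

open Groth.Agent.Pi1.H387.Pts

/-! ### Points of a standard étale algebra -/

/-- Points of a standard étale algebra over a given point of the base. -/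
theorem exists_lift {R S : Type*} [CommRing R] [CommRing S] [Algebra R S]
    (P : StandardEtalePresentation R S) (χ : R →+* ℂ) (t : ℂ) (hf : P.f.eval₂ χ t = 0)
    (hg : P.g.eval₂ χ t ≠ 0) :
    ∃ χ' : S →+* ℂ, (∀ r, χ' (algebraMap R S r) = χ r) ∧ χ' P.x = t := by
  let _ : Algebra R ℂ := χ.toAlgebra
  have hm : P.P.HasMap t := ⟨hf, IsUnit.mk0 _ hg⟩
  let ψ : S →ₐ[R] ℂ := (P.P.lift t hm).comp P.equivRing.toAlgHom
  refine ⟨ψ.toRingHom, fun r => ψ.commutes r, ?_⟩
  change P.P.lift t hm (P.equivRing P.x) = t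
  rw [StandardEtalePresentation.equivRing_x, StandardEtalePair.lift_X]

/-- Ring maps out of a standard étale algebra are determined by the values on the base and at the
generator. -/
theorem ext_standard {R S : Type*} [CommRing R] [CommRing S] [Algebra R S]
    (P : StandardEtalePresentation R S) (χ χ' : S →+* ℂ)
    (h : ∀ r, χ (algebraMap R S r) = χ' (algebraMap R S r)) (hx : χ P.x = χ' P.x) : χ = χ' := by
  let _ : Algebra R ℂ := (χ.comp (algebraMap R S)).toAlgebra
  let ψ : S →ₐ[R] ℂ := { χ with commutes' := fun r => rfl }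
  let ψ' : S →ₐ[R] ℂ := { χ' with commutes' := fun r => (h r).symm }
  have : ψ = ψ' := P.hom_ext hx
  ext s
  exact DFunLike.congr_fun this s

/-- Values of a point of a standard étale algebra as fractions of polynomials. -/
theorem value_eq {R S : Type*} [CommRing R] [CommRing S] [Algebra R S]
    (P : StandardEtalePresentation R S) (s : S) :
    ∃ (p : R[X]) (n : ℕ), ∀ χ' : S →+* ℂ,
      χ' s * (P.g.eval₂ (χ'.comp (algebraMap R S)) (χ' P.x)) ^ n =
        p.eval₂ (χ'.comp (algebraMap R S)) (χ' P.x) := by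
  obtain ⟨p, n, h⟩ := P.exists_mul_aeval_x_g_pow_eq_aeval_x s
  refine ⟨p, n, fun χ' => ?_⟩
  have h1 := congrArg χ' h
  rw [map_mul, map_pow] at h1
  have h2 : ∀ q : R[X], χ' (q.aeval P.x) = q.eval₂ (χ'.comp (algebraMap R S)) (χ' P.x) := by
    intro q
    rw [aeval_def, hom_eval₂]
  rw [h2, h2] at h1
  exact h1

/-- For a monic polynomial with coefficients in a ring `R` and a point `χ`, there is a root at
distance controlled by the value. -/
theorem exists_near_root {R : Type*} [CommRing R] (f : R[X]) (hf : f.Monic) (hd : f.natDegree ≠ 0)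
    (χ : R →+* ℂ) (t₀ : ℂ) :
    ∃ t : ℂ, f.eval₂ χ t = 0 ∧ ‖t - t₀‖ ^ f.natDegree ≤ ‖f.eval₂ χ t₀‖ := by
  have hm : ((f.map χ).comp (X + C t₀)).Monic := (hf.map χ).comp_X_add_C t₀
  have hdeg : ((f.map χ).comp (X + C t₀)).natDegree = f.natDegree := by
    rw [natDegree_comp, natDegree_X_add_C, mul_one, hf.natDegree_map]
  obtain ⟨z, hz, hz'⟩ := Groth.Agent.An.H866.AlgDense.exists_small_root _ hm
    (by rw [hdeg]; exact hd)
  refine ⟨z + t₀, ?_, ?_⟩
  · rw [IsRoot, eval_comp] at hz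
    simp only [eval_add, eval_X, eval_C] at hz
    rw [eval_map] at hz
    exact hz
  · rw [hdeg] at hz'
    rw [add_sub_cancel_right]
    refine hz'.trans (le_of_eq ?_)
    congr 1
    rw [coeff_zero_eq_eval_zero, eval_comp]
    simp only [eval_add, eval_X, eval_C, zero_add]
    rw [eval_map]

section

variable {A B : Type*} [CommRing A] [Algebra ℂ A] [CommRing B] [Algebra ℂ B] [Algebra A B]
  [IsScalarTower ℂ A B]

/-- The values of a polynomial with coefficients in `A` depend continuously on the point and on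
the argument. -/
theorem continuousAt_eval₂ (t₀ : Pts A) (τ : Pts A → ℂ) (hτ : ContinuousAt τ t₀) (p : A[X]) :
    ContinuousAt (fun t : Pts A => p.eval₂ ((t : A →ₐ[ℂ] ℂ) : A →+* ℂ) (τ t)) t₀ := by
  simp only [eval₂_eq_sum, Polynomial.sum]
  refine tendsto_finsetSum _ fun i _ => ?_
  exact ContinuousAt.mul (continuous_ev (p.coeff i)).continuousAt (hτ.pow i)

/-- A standard étale algebra gives an open map on complex points. -/
theorem isOpenMap_proj_of_standard (P : StandardEtalePresentation A B) :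
    IsOpenMap (proj A B) := by
  classical
  refine IsOpenMap.of_nhds_le fun x => ?_
  let y₀ : Pts A := proj A B x
  let hev' : ∀ y : Pts A, A →+* ℂ := fun y => ((y : A →ₐ[ℂ] ℂ) : A →+* ℂ)
  have hcomp : ∀ z : Pts B, ((z : B →ₐ[ℂ] ℂ) : B →+* ℂ).comp (algebraMap A B) =
      hev' (proj A B z) := fun z => rfl
  set t₀ : ℂ := x P.x with ht₀
  have hev : ∀ q : A[X], q.eval₂ (hev' y₀) t₀ = x (aeval P.x q) := fun q => by
    rw [← hcomp x, aeval_def]
    have := hom_eval₂ q (algebraMap A B) ((x : B →ₐ[ℂ] ℂ) : B →+* ℂ) P.x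
    exact this.symm
  have hf0 : P.f.eval₂ (hev' y₀) t₀ = 0 := by
    rw [hev, P.hasMap.1, map_zero]
  have hg0 : P.g.eval₂ (hev' y₀) t₀ ≠ 0 := by
    rw [hev]
    exact ((P.hasMap.2).map ((x : B →ₐ[ℂ] ℂ) : B →+* ℂ)).ne_zero
  have hd : P.f.natDegree ≠ 0 := by
    intro hd0
    rw [P.monic_f.natDegree_eq_zero.1 hd0, eval₂_one] at hf0
    exact one_ne_zero hf0
  choose σ hσ1 hσ2 using fun y : Pts A => exists_near_root P.f P.monic_f hd (hev' y) t₀
  have hval : ∀ q : A[X], ∀ τ : Pts A → ℂ, ContinuousAt τ y₀ →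
      ContinuousAt (fun y : Pts A => q.eval₂ (hev' y) (τ y)) y₀ :=
    fun q τ hτ => continuousAt_eval₂ y₀ τ hτ q
  have hσ0 : σ y₀ = t₀ := by
    have h1 := hσ2 y₀
    rw [hf0, norm_zero] at h1
    have h2 : ‖σ y₀ - t₀‖ ^ P.f.natDegree = 0 := le_antisymm h1 (by positivity)
    exact sub_eq_zero.1 (norm_eq_zero.1 ((pow_eq_zero_iff hd).1 h2))
  have hσc : ContinuousAt σ y₀ := by
    have h1 := (hval P.f (fun _ => t₀) continuousAt_const).norm
    rw [ContinuousAt, hf0, norm_zero] at h1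
    rw [Metric.continuousAt_iff']
    intro ε hε
    filter_upwards [h1.eventually (gt_mem_nhds (pow_pos hε P.f.natDegree))] with y hy
    rw [hσ0, dist_eq_norm]
    exact lt_of_pow_lt_pow_left₀ _ hε.le ((hσ2 y).trans_lt hy)
  let G : Pts A → ℂ := fun y => P.g.eval₂ (hev' y) (σ y)
  have hGc : ContinuousAt G y₀ := hval P.g σ hσc
  have hG0 : G y₀ ≠ 0 := by
    change P.g.eval₂ (hev' y₀) (σ y₀) ≠ 0
    rw [hσ0]
    exact hg0
  have hGev : ∀ᶠ y in 𝓝 y₀, G y ≠ 0 := hGc.eventually_ne hG0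
  have hlift : ∀ y : Pts A, ∃ z : Pts B, G y ≠ 0 → proj A B z = y ∧ z P.x = σ y := by
    intro y
    by_cases hGy : G y = 0
    · exact ⟨x, fun h => absurd hGy h⟩
    obtain ⟨χ', h1, h2⟩ := exists_lift P (hev' y) (σ y) (hσ1 y) hGy
    refine ⟨({ χ' with commutes' := fun c => ?_ } : B →ₐ[ℂ] ℂ), fun _ => ⟨ext' fun a => h1 a, h2⟩⟩
    change χ' (algebraMap ℂ B c) = _
    rw [IsScalarTower.algebraMap_apply ℂ A B, h1]
    exact AlgHomClass.commutes y c
  choose ψ hψ using hlift
  have hψ0 : ψ y₀ = x := by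
    obtain ⟨h1, h2⟩ := hψ y₀ hG0
    have h3 : ((ψ y₀ : B →ₐ[ℂ] ℂ) : B →+* ℂ) = ((x : B →ₐ[ℂ] ℂ) : B →+* ℂ) :=
      ext_standard P _ _ (fun r => DFunLike.congr_fun h1 r) (h2.trans hσ0)
    exact ext' fun b => DFunLike.congr_fun h3 b
  have hψc : Tendsto ψ (𝓝 y₀) (𝓝 x) := by
    refine tendsto_iff.2 fun s => ?_
    obtain ⟨p, n, hpn⟩ := value_eq P s
    have h1 : ContinuousAt (fun y : Pts A => p.eval₂ (hev' y) (σ y) / (G y) ^ n) y₀ :=
      (hval p σ hσc).div (hGc.pow n) (pow_ne_zero n hG0)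
    have h5 : ∀ y, G y ≠ 0 → p.eval₂ (hev' y) (σ y) / (G y) ^ n = ψ y s := by
      intro y hy
      obtain ⟨h2, h3⟩ := hψ y hy
      have h4 := hpn ((ψ y : B →ₐ[ℂ] ℂ) : B →+* ℂ)
      have h5 : ((ψ y : B →ₐ[ℂ] ℂ) : B →+* ℂ).comp (algebraMap A B) = hev' y := by
        rw [hcomp, h2]
      have h6 : ((ψ y : B →ₐ[ℂ] ℂ) : B →+* ℂ) P.x = σ y := h3
      rw [h5, h6] at h4
      rw [div_eq_iff (pow_ne_zero n hy)]
      exact h4.symm
    have h6 : Tendsto (fun y => ψ y s) (𝓝 y₀) (𝓝 (ψ y₀ s)) := by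
      rw [← h5 y₀ hG0]
      refine h1.tendsto.congr' ?_
      filter_upwards [hGev] with y hy
      exact h5 y hy
    rwa [hψ0] at h6
  -- conclusion
  intro s hs
  have hs' : (proj A B) ⁻¹' s ∈ 𝓝 x := hs
  change s ∈ 𝓝 y₀
  filter_upwards [hψc hs', hGev] with y hy1 hy2
  have h2 : proj A B (ψ y) ∈ s := hy1
  rwa [(hψ y hy2).1] at h2

end

/-! ### Charts -/

/-- A chart from two open embeddings of the same space. -/
theorem exists_chart_of {U X Y : Type*} [TopologicalSpace U] [TopologicalSpace X]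
    [TopologicalSpace Y] {i : U → X} {j : U → Y} (hi : IsOpenEmbedding i)
    (hj : IsOpenEmbedding j) (u : U) :
    ∃ ψ : OpenPartialHomeomorph X Y, i u ∈ ψ.source ∧ ∀ x ∈ ψ.source, ∃ v, i v = x ∧ ψ x = j v := by
  have : Nonempty U := ⟨u⟩
  let e1 : OpenPartialHomeomorph U X := hi.toOpenPartialHomeomorph
  let e2 : OpenPartialHomeomorph U Y := hj.toOpenPartialHomeomorph
  refine ⟨e1.symm.trans e2, ?_, ?_⟩
  · rw [OpenPartialHomeomorph.trans_source, OpenPartialHomeomorph.symm_source]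
    refine ⟨⟨u, trivial, rfl⟩, ?_⟩
    trivial
  · intro x hx
    rw [OpenPartialHomeomorph.trans_source, OpenPartialHomeomorph.symm_source] at hx
    obtain ⟨v, -, rfl⟩ := hx.1
    refine ⟨v, rfl, ?_⟩
    change e2 (e1.symm (e1 v)) = j v
    rw [e1.left_inv (by trivial)]
    rfl

section

variable {A B : Type*} [CommRing A] [Algebra ℂ A] [CommRing B] [Algebra ℂ B] [Algebra A B]
  [IsScalarTower ℂ A B]

/-- An algebra which is étale at a complex point gives a local homeomorphism there. -/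
theorem exists_chart [Algebra.FinitePresentation A B] (x : Pts B)
    (Q : Ideal B) [Q.IsPrime] (hQ : ∀ b, x b = 0 ↔ b ∈ Q) [Algebra.IsEtaleAt A Q] :
    ∃ ψ : OpenPartialHomeomorph (Pts B) (Pts A), x ∈ ψ.source ∧
      ∀ y ∈ ψ.source, ψ y = proj A B y := by
  obtain ⟨h, hhQ, hstd⟩ := Algebra.IsEtaleAt.exists_isStandardEtale (R := A) Q
  have hx : x h ≠ 0 := fun h0 => hhQ ((hQ h).1 h0)
  obtain ⟨P⟩ := hstd.nonempty_standardEtalePresentation
  have : IsScalarTower ℂ A (Localization.Away h) := by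
    refine IsScalarTower.of_algebraMap_eq fun c => ?_
    rw [IsScalarTower.algebraMap_apply ℂ B (Localization.Away h),
      IsScalarTower.algebraMap_apply ℂ A B, ← IsScalarTower.algebraMap_apply A B]
  let x' : Pts (Localization.Away h) := lift h x hx
  have hx' : proj B (Localization.Away h) x' = x := proj_lift h x hx
  have hop := isOpenMap_proj_of_standard P
  obtain ⟨N, hN, hinj⟩ := exists_injOn (A := A) (B := Localization.Away h) x'
  obtain ⟨N', hN'N, hN', hxN'⟩ := mem_nhds_iff.1 hN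
  have hi : IsOpenEmbedding (fun v : N' => proj B (Localization.Away h) v.1) :=
    (isOpenEmbedding_proj h).comp hN'.isOpenEmbedding_subtypeVal
  have hj : IsOpenEmbedding (fun v : N' => proj A (Localization.Away h) v.1) := by
    refine IsOpenEmbedding.of_continuous_injective_isOpenMap ?_ ?_ ?_
    · exact continuous_proj.comp continuous_subtype_val
    · exact (hinj.mono hN'N).injective
    · exact hop.comp hN'.isOpenMap_subtype_val
  obtain ⟨ψ, h1, h2⟩ := exists_chart_of hi hj ⟨x', hxN'⟩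
  refine ⟨ψ, ?_, ?_⟩
  · have h3 : proj B (Localization.Away h) x' ∈ ψ.source := h1
    rwa [hx'] at h3
  · intro y hy
    obtain ⟨v, rfl, h3⟩ := h2 y hy
    rw [h3]
    refine ext' fun a => ?_
    simp only [proj_apply]
    rw [← IsScalarTower.algebraMap_apply A B]

end

end Groth.Agent.Pi1.H611.ChartEt
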