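import Groth.Agent.Pi1.H611.ChartInt
import Groth.Agent.Pi1.H147.Fib
import Mathlib.RingTheory.Localization.Integral

/-!
# The comparison of the points of a finite étale algebra over an open subset of the line and of the
normalisation of the line in it: the finite punctures
-/

set_option autoImplicit false

open Topology Filter Polynomial

universe u v w

noncomputable section

namespace Groth.Agent.Pi1.H611.ChartFin

open Groth.Agent.Pi1.H387.Pts Groth.Agent.Pi1.H147.Slit Groth.Agent.Pi1.H147.Fib

section alg

/-- `C` is the localization of the integral closure `M` away from `P`. -/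
theorem isLocalization_away {R : Type*} [CommRing R] (P : R) (A C M : Type*) [CommRing A]
    [Algebra R A] [IsLocalization.Away P A]
    [CommRing C] [Algebra R C] [Algebra A C] [IsScalarTower R A C] [Algebra.IsIntegral A C]
    [CommRing M] [Algebra R M] [Algebra M C] [IsScalarTower R M C] [IsIntegralClosure M R C] :
    IsLocalization.Away (algebraMap R M P) C := by
  have hu : IsUnit (algebraMap M C (algebraMap R M P)) := by
    rw [← IsScalarTower.algebraMap_apply, IsScalarTower.algebraMap_apply R A C]
    exact (IsLocalization.Away.algebraMap_isUnit P).map _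
  refine IsLocalization.Away.mk _ hu (fun c => ?_) (fun a b h => ?_)
  · obtain ⟨⟨m, n, rfl⟩, hm⟩ := IsIntegral.exists_multiple_integral_of_isLocalization
      (Submonoid.powers P) (Rₘ := A) c (Algebra.IsIntegral.isIntegral c)
    obtain ⟨a, ha⟩ := (IsIntegralClosure.isIntegral_iff (A := M)).1 hm
    refine ⟨n, a, ?_⟩
    rw [ha, Submonoid.smul_def, Algebra.smul_def, mul_comm, ← IsScalarTower.algebraMap_apply,
      map_pow]
  · exact ⟨0, by rw [IsIntegralClosure.algebraMap_injective M R C h]⟩

end alg

section

variable (P : ℂ[X]) (A : Type w) [CommRing A] [Algebra ℂ[X] A] [IsLocalization.Away P A]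
  (C : Type u) [CommRing C] [Algebra ℂ[X] C] [Algebra A C] [IsScalarTower ℂ[X] A C]
  [Module.Finite A C] [Algebra.Etale A C]

include P A in
omit [Module.Finite A C] in
theorem etale : Algebra.Etale ℂ[X] C := by
  have : Algebra.Etale ℂ[X] A := Algebra.Etale.of_isLocalizationAway P
  exact Algebra.Etale.comp ℂ[X] A C

variable (M : Type v) [CommRing M] [Algebra ℂ[X] M] [Algebra M C] [IsScalarTower ℂ[X] M C]
  [IsIntegralClosure M ℂ[X] C]

include P A C in
omit [Module.Finite A C] in
theorem finite : Module.Finite ℂ[X] M := by
  have := etale P A C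
  exact ChartInt.finite C M

variable [Algebra ℂ C] [IsScalarTower ℂ ℂ[X] C] [Algebra ℂ M] [IsScalarTower ℂ ℂ[X] M]
  [IsScalarTower ℂ M C]

include P A in
omit [Algebra.Etale A C] [IsScalarTower ℂ ℂ[X] C] [IsScalarTower ℂ ℂ[X] M] in
theorem isOpenEmbedding : IsOpenEmbedding (proj M C) := by
  have := isLocalization_away P A C M
  exact isOpenEmbedding_proj (algebraMap ℂ[X] M P)

include A in
omit [Algebra.Etale A C] [IsScalarTower ℂ ℂ[X] C] in
theorem mem_range (x : Pts M) : x ∈ Set.range (proj M C) ↔ P.eval (coord M x) ≠ 0 := by
  have := isLocalization_away P A C M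
  rw [range_proj (algebraMap ℂ[X] M P), Set.mem_ofPred_eq, apply_algebraMap]

omit [IsIntegralClosure M ℂ[X] C] [IsScalarTower ℂ ℂ[X] C] [IsScalarTower ℂ ℂ[X] M] in
lemma coord_proj (e : Pts C) : coord M (proj M C e) = coord C e := by
  change (proj M C e) (algebraMap ℂ[X] M X) = e (algebraMap ℂ[X] C X)
  rw [proj_apply, ← IsScalarTower.algebraMap_apply]

include A in
omit [IsScalarTower ℂ ℂ[X] C] in
/-- The comparison at a finite puncture. -/
theorem finHyp {n : ℕ} {b : Fin n → ℂ} (hP : P = ∏ i, (X - Polynomial.C (b i))) (i : Fin n) :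
    FinHyp b i (coord C) (coord M) (id : Pts C → Pts C) (proj M C) := by
  have hM : Module.Finite ℂ[X] M := finite P A C M
  have het : Algebra.Etale ℂ[X] C := etale P A C
  exact
    { t2 := inferInstance
      hκ := IsOpenEmbedding.id
      hι := isOpenEmbedding P A C M
      comm := fun e => coord_proj C M e
      rangeκ := fun e _ => ⟨e, rfl⟩
      rangeι := fun x hx => by
        rw [mem_range P A C M, hP, eval_prod]
        refine Finset.prod_ne_zero_iff.2 fun j _ => ?_
        rw [eval_sub, eval_X, eval_C]
        exact sub_ne_zero.2 (hx j)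
      cont := continuous_coord M
      closed := (isProperMap_coord M).isClosedMap
      fin := finite_fibre_coord M _
      chart := fun x _ => ChartInt.exists_chart C M x }

end

end Groth.Agent.Pi1.H611.ChartFin
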