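import Groth.Agent.Pi1.H611.ChartFin
import Mathlib.Algebra.Polynomial.Reverse

/-!
# The comparison of the points of a finite étale algebra over an open subset of the line and of the
normalisation of the line in it: the point at infinity
-/

set_option autoImplicit false

open Topology Filter Polynomial

universe u v w u' w'

noncomputable section

namespace Groth.Agent.Pi1.H611.ChartInf

open Groth.Agent.Pi1.H387.Pts Groth.Agent.Pi1.H147.Slit Groth.Agent.Pi1.H147.Fib

section alg

variable {k : Type w} [Field k]

/-- Change of coordinate `X ↦ X⁻¹`. -/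
theorem isLocalization_inv {A' : Type*} [CommRing A'] (φ : k[X] →+* A') [Algebra k[X] A']
    (hC : ∀ c : k, φ (C c) = algebraMap k[X] A' (C c)) (h1 : φ X * algebraMap k[X] A' X = 1)
    (P : k[X]) (hu : IsUnit (φ P)) (hs : ∀ z : A', ∃ (n : ℕ) (p : k[X]), z * φ (X * P) ^ n = φ p)
    (hi : Function.Injective φ) : IsLocalization.Away (X * P.reverse) A' := by
  set t : A' := φ X with ht
  set s : A' := algebraMap k[X] A' X with hs'
  have h1' : s * t = 1 := by rw [mul_comm]; exact h1
  let i : k →+* A' := φ.comp C
  have hφ : ∀ p : k[X], φ p = eval₂ i t p := by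
    intro p
    have h2 : φ = eval₂RingHom i t := by
      apply Polynomial.ringHom_ext
      · intro a; simp [i]
      · simp [ht]
    rw [h2]; rfl
  have hψ : ∀ p : k[X], algebraMap k[X] A' p = eval₂ i s p := by
    intro p
    have h2 : algebraMap k[X] A' = eval₂RingHom i s := by
      apply Polynomial.ringHom_ext
      · intro a; simp [i, hC]
      · simp [hs']
    rw [h2]; rfl
  have hrev : ∀ p : k[X], algebraMap k[X] A' p.reverse * t ^ p.natDegree = φ p := by
    intro p
    let _ : Invertible t := ⟨s, h1', h1⟩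
    rw [hψ, hφ]
    exact eval₂_reverse_mul_pow i t p
  have hrev' : ∀ p : k[X], φ p.reverse * s ^ p.natDegree = algebraMap k[X] A' p := by
    intro p
    let _ : Invertible s := ⟨t, h1, h1'⟩
    rw [hψ, hφ]
    exact eval₂_reverse_mul_pow i s p
  have hst : ∀ n : ℕ, s ^ n * t ^ n = 1 := fun n => by rw [← mul_pow, h1', one_pow]
  refine IsLocalization.Away.mk _ ?_ ?_ ?_
  · rw [map_mul]
    refine IsUnit.mul (IsUnit.of_mul_eq_one t h1') ?_
    have h2 := hrev P
    rw [← h2] at hu
    exact isUnit_of_mul_isUnit_left hu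
  · intro z
    obtain ⟨n, p, hp⟩ := hs z
    refine ⟨n + p.natDegree, p.reverse * X ^ ((P.natDegree + 1) * n) * P.reverse ^ p.natDegree *
      X ^ n, ?_⟩
    rw [map_mul φ, ← ht, ← hrev P, ← hrev p] at hp
    simp only [map_mul, map_pow, ← hs']
    set r := algebraMap k[X] A' P.reverse
    set q := algebraMap k[X] A' p.reverse
    set d := P.natDegree
    set e := p.natDegree
    -- hp : z * (t * (r * t ^ d)) ^ n = q * t ^ e
    have h3 : z * r ^ n * s ^ e = q * s ^ ((d + 1) * n) := by
      calc z * r ^ n * s ^ e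
          = z * ((t * (r * t ^ d)) ^ n * s ^ ((d + 1) * n)) * s ^ e := by
            have h4 : (t * (r * t ^ d)) ^ n * s ^ ((d + 1) * n) = r ^ n := by
              calc (t * (r * t ^ d)) ^ n * s ^ ((d + 1) * n)
                  = r ^ n * (s ^ ((d + 1) * n) * t ^ ((d + 1) * n)) := by ring
                _ = r ^ n := by rw [hst, mul_one]
            rw [h4]
        _ = (z * (t * (r * t ^ d)) ^ n) * s ^ ((d + 1) * n) * s ^ e := by ring
        _ = q * s ^ ((d + 1) * n) * (s ^ e * t ^ e) := by rw [hp]; ring
        _ = q * s ^ ((d + 1) * n) := by rw [hst, mul_one]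
    calc z * (s * r) ^ (n + e) = (z * r ^ n * s ^ e) * r ^ e * s ^ n := by
          rw [mul_pow, pow_add, pow_add]; ring
      _ = q * s ^ ((d + 1) * n) * r ^ e * s ^ n := by rw [h3]
  · intro a b hab
    refine ⟨0, ?_⟩
    have h2 : a - b = 0 := by
      have h3 : algebraMap k[X] A' (a - b) = 0 := by rw [map_sub, hab, sub_self]
      rw [← hrev'] at h3
      have h4 : φ (a - b).reverse = 0 := by
        calc φ (a - b).reverse = (φ (a - b).reverse * s ^ (a - b).natDegree) *
              t ^ (a - b).natDegree := by rw [mul_assoc, hst, mul_one]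
          _ = 0 := by rw [h3, zero_mul]
      exact reverse_eq_zero.1 (hi (h4.trans (map_zero φ).symm))
    rw [sub_eq_zero.1 h2]

/-- The localization of `k[t, 1/P]` away from `t` as a localization of `k[1/t]`. -/
theorem exists_model (P : k[X]) (hP : P ≠ 0) (A : Type w') [CommRing A] [Algebra k[X] A]
    [IsLocalization.Away P A] :
    ∃ (A' : Type w') (_ : CommRing A') (_ : Algebra A A') (_ : Algebra k[X] A'),
      IsLocalization.Away (algebraMap k[X] A X) A' ∧ IsLocalization.Away (X * P.reverse) A' ∧
      (∀ c : k, algebraMap k[X] A' (C c) = algebraMap A A' (algebraMap k[X] A (C c))) ∧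
      algebraMap A A' (algebraMap k[X] A X) * algebraMap k[X] A' X = 1 := by
  let A' := Localization.Away (algebraMap k[X] A X)
  let φ : k[X] →+* A' := (algebraMap A A').comp (algebraMap k[X] A)
  have hφ : φ = algebraMap k[X] A' := (IsScalarTower.algebraMap_eq k[X] A A').symm
  have hloc : IsLocalization.Away (X * P) A' := IsLocalization.Away.mul A A' P X
  have hsurj : ∀ z : A', ∃ (n : ℕ) (p : k[X]), z * φ (X * P) ^ n = φ p := by
    intro z
    obtain ⟨n, p, h⟩ := IsLocalization.Away.surj (X * P : k[X]) z
    exact ⟨n, p, by rw [hφ]; exact h⟩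
  have hinj : Function.Injective φ := by
    rw [hφ]
    exact IsLocalization.injective A' (M := Submonoid.powers (X * P))
      (powers_le_nonZeroDivisors_of_noZeroDivisors (mul_ne_zero X_ne_zero hP))
  have huX : IsUnit (φ X) := IsLocalization.Away.algebraMap_isUnit (algebraMap k[X] A X)
  have huP : IsUnit (φ P) := (IsLocalization.Away.algebraMap_isUnit P).map (algebraMap A A')
  obtain ⟨s, hs⟩ := huX.exists_right_inv
  let ψ : k[X] →+* A' := eval₂RingHom (φ.comp C) s
  have hψX : ψ X = s := by simp [ψ]
  have hψC : ∀ c, ψ (C c) = φ (C c) := fun c => by simp [ψ]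
  refine ⟨A', inferInstance, inferInstance, ψ.toAlgebra, inferInstance, ?_, ?_, ?_⟩
  · exact @isLocalization_inv k _ A' _ φ ψ.toAlgebra (fun c => (hψC c).symm)
      (by change φ X * ψ X = 1; rw [hψX]; exact hs) P huP hsurj hinj
  · exact hψC
  · change φ X * ψ X = 1
    rw [hψX]
    exact hs

end alg

section

variable (P : ℂ[X]) (A : Type w) [CommRing A] [Algebra ℂ[X] A] [IsLocalization.Away P A]
  (C : Type u) [CommRing C] [Algebra ℂ[X] C] [Algebra A C] [IsScalarTower ℂ[X] A C]
  [Module.Finite A C] [Algebra.Etale A C] [Algebra ℂ C] [IsScalarTower ℂ ℂ[X] C]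
  (C' : Type u') [CommRing C'] [Algebra ℂ C'] [Algebra C C'] [IsScalarTower ℂ C C']
  [IsLocalization.Away (algebraMap ℂ[X] C X) C']
  (M' : Type v) [CommRing M'] [Algebra ℂ M'] [Algebra ℂ[X] M'] [IsScalarTower ℂ ℂ[X] M']
  [Algebra M' C'] [IsScalarTower ℂ M' C'] [Algebra ℂ[X] C'] [IsScalarTower ℂ[X] M' C']
  [IsIntegralClosure M' ℂ[X] C']
  (hts : algebraMap C C' (algebraMap ℂ[X] C X) * algebraMap M' C' (algebraMap ℂ[X] M' X) = 1)

include A hts in
omit [IsIntegralClosure M' ℂ[X] C'] in
/-- Near infinity, the algebra is finite étale over an open subset of the line with coordinate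
`1 / t`. -/
theorem exists_model' (hP : P ≠ 0) :
    ∃ (A' : Type w) (_ : CommRing A') (_ : Algebra ℂ[X] A') (_ : Algebra A' C')
      (_ : IsScalarTower ℂ[X] A' C'), IsLocalization.Away (X * P.reverse) A' ∧
      Module.Finite A' C' ∧ Algebra.Etale A' C' := by
  obtain ⟨A', _, _, _, hl1, hl2, hc, hx⟩ := exists_model P hP A
  let _ : Algebra A C' := ((algebraMap C C').comp (algebraMap A C)).toAlgebra
  have hst1 : IsScalarTower A C C' := IsScalarTower.of_algebraMap_eq fun _ => rfl
  have htC : algebraMap A C' (algebraMap ℂ[X] A X) = algebraMap C C' (algebraMap ℂ[X] C X) := by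
    rw [IsScalarTower.algebraMap_apply A C C', ← IsScalarTower.algebraMap_apply ℂ[X] A C]
  have hu : IsUnit (algebraMap A C' (algebraMap ℂ[X] A X)) := by
    rw [htC]
    exact IsLocalization.Away.algebraMap_isUnit _
  let _ : Algebra A' C' := (IsLocalization.Away.lift (S := A') _ hu).toAlgebra
  have hst2 : IsScalarTower A A' C' := IsScalarTower.of_algebraMap_eq fun a =>
    (IsLocalization.Away.lift_eq (S := A') _ hu a).symm
  have hst3 : IsScalarTower ℂ[X] A' C' := by
    refine IsScalarTower.of_algebraMap_eq' ?_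
    apply Polynomial.ringHom_ext
    · intro c
      rw [RingHom.comp_apply, hc, ← IsScalarTower.algebraMap_apply A A' C',
        IsScalarTower.algebraMap_apply A C C', ← IsScalarTower.algebraMap_apply ℂ[X] A C,
        IsScalarTower.algebraMap_apply ℂ[X] M' C']
      have h1 : algebraMap ℂ[X] M' (Polynomial.C c) = algebraMap ℂ M' c :=
        (IsScalarTower.algebraMap_apply ℂ ℂ[X] M' c).symm
      have h2 : algebraMap ℂ[X] C (Polynomial.C c) = algebraMap ℂ C c :=
        (IsScalarTower.algebraMap_apply ℂ ℂ[X] C c).symm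
      rw [h1, h2, ← IsScalarTower.algebraMap_apply, ← IsScalarTower.algebraMap_apply]
    · rw [RingHom.comp_apply]
      have h1 := congrArg (algebraMap A' C') hx
      rw [map_mul, map_one, ← IsScalarTower.algebraMap_apply A A' C', htC] at h1
      rw [IsScalarTower.algebraMap_apply ℂ[X] M' C']
      have h2 : IsUnit (algebraMap C C' (algebraMap ℂ[X] C X)) :=
        IsLocalization.Away.algebraMap_isUnit _
      exact h2.mul_left_cancel (hts.trans h1.symm)
  refine ⟨A', inferInstance, inferInstance, inferInstance, hst3, hl2, ?_, ?_⟩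
  · have h1 : IsLocalization (Algebra.algebraMapSubmonoid C
        (Submonoid.powers (algebraMap ℂ[X] A X))) C' := by
      rw [Algebra.algebraMapSubmonoid_powers, ← IsScalarTower.algebraMap_apply]
      infer_instance
    exact Module.Finite.of_isLocalization A C (Submonoid.powers (algebraMap ℂ[X] A X))
  · have h1 : Algebra.Etale C C' := Algebra.Etale.of_isLocalizationAway (algebraMap ℂ[X] C X)
    have h2 : Algebra.Etale A C' := Algebra.Etale.comp A C C'
    have h3 : Algebra.Etale A A' := Algebra.Etale.of_isLocalizationAway (algebraMap ℂ[X] A X)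
    exact Algebra.Etale.of_restrictScalars A A' C'

include hts in
omit [IsScalarTower ℂ ℂ[X] C] [IsLocalization.Away (algebraMap ℂ[X] C X) C']
  [IsScalarTower ℂ ℂ[X] M'] [Algebra ℂ[X] C'] [IsScalarTower ℂ[X] M' C']
  [IsIntegralClosure M' ℂ[X] C'] in
lemma coord_mul (e : Pts C') :
    coord M' (proj M' C' e) * coord C (proj C C' e) = 1 := by
  have h1 := congrArg (fun z => e z) hts
  simp only [map_mul, map_one] at h1
  rw [mul_comm]
  exact h1

include A hts in
/-- The comparison at infinity. -/
theorem infHyp {n : ℕ} {b : Fin n → ℂ} (hP : P = ∏ i, (X - Polynomial.C (b i))) :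
    InfHyp b (coord C) (coord M') (proj C C') (proj M' C') := by
  have hP0 : P ≠ 0 := by
    rw [hP]
    exact Finset.prod_ne_zero_iff.2 fun j _ => X_sub_C_ne_zero _
  obtain ⟨A', _, _, _, _, hl, hfin, het⟩ := exists_model' P A C C' M' hts hP0
  have hM : Module.Finite ℂ[X] M' := ChartFin.finite (X * P.reverse) A' C' M'
  have het' : Algebra.Etale ℂ[X] C' := ChartFin.etale (X * P.reverse) A' C'
  exact
    { t2 := inferInstance
      hκ := isOpenEmbedding_proj (algebraMap ℂ[X] C X)
      hι := ChartFin.isOpenEmbedding (X * P.reverse) A' C' M'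
      comm := fun e => coord_mul C C' M' hts e
      rangeκ := fun e _ he => by
        rw [range_proj (algebraMap ℂ[X] C X)]
        exact he
      rangeι := fun x hx0 hx => by
        rw [ChartFin.mem_range (X * P.reverse) A' C' M', eval_mul, eval_X]
        refine mul_ne_zero hx0 ?_
        intro h
        have h1 : eval₂ (RingHom.id ℂ) (coord M' x)⁻¹ P = 0 := by
          let _ : Invertible (coord M' x)⁻¹ := ⟨coord M' x, mul_inv_cancel₀ hx0, inv_mul_cancel₀ hx0⟩
          rw [← eval₂_reverse_eq_zero_iff]
          exact h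
        change P.eval (coord M' x)⁻¹ = 0 at h1
        rw [hP, eval_prod] at h1
        obtain ⟨j, -, hj⟩ := Finset.prod_eq_zero_iff.1 h1
        rw [eval_sub, eval_X, eval_C] at hj
        exact hx j (sub_eq_zero.1 hj)
      cont := continuous_coord M'
      closed := (isProperMap_coord M').isClosedMap
      fin := finite_fibre_coord M' _
      chart := fun x _ => ChartInt.exists_chart C' M' x }

end

end Groth.Agent.Pi1.H611.ChartInf
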