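import Groth.Agent.Pi1.H611.ChartDed
import Groth.Agent.Pi1.H611.ChartDec

/-!
# Charts on the complex points of the normalisation of the line in an étale algebra
-/

set_option autoImplicit false

open Topology Filter Polynomial

universe u v

noncomputable section

namespace Groth.Agent.Pi1.H611.ChartInt

open Groth.Agent.Pi1.H387.Pts

variable (C : Type u) [CommRing C] [Algebra ℂ[X] C] [Algebra.Etale ℂ[X] C]
  (M : Type v) [CommRing M] [Algebra ℂ[X] M] [Algebra M C] [IsScalarTower ℂ[X] M C]
  [IsIntegralClosure M ℂ[X] C]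

include C in
/-- The normalisation is finite. -/
theorem finite : Module.Finite ℂ[X] M := by
  obtain ⟨I, _, D, _, _, _, e, he⟩ := ChartDec.exists_decomp ℂ[X] C M
  have h1 : ∀ i, Module.Finite ℂ[X] (D i) := fun i => (he i).1
  exact Module.Finite.of_surjective e.symm.toLinearMap e.symm.surjective

variable [Algebra ℂ M] [IsScalarTower ℂ ℂ[X] M]

include C in
/-- The space of points of the normalisation has a chart at every point. -/
theorem exists_chart (x : Pts M) : ∃ ψ : OpenPartialHomeomorph (Pts M) ℂ, x ∈ ψ.source := by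
  classical
  obtain ⟨I, _, D, _, _, _, e, he⟩ := ChartDec.exists_decomp ℂ[X] C M
  let _ : ∀ i, Algebra ℂ (D i) := fun i =>
    ((algebraMap ℂ[X] (D i)).comp (algebraMap ℂ ℂ[X])).toAlgebra
  have hst : ∀ i, IsScalarTower ℂ ℂ[X] (D i) := fun i => IsScalarTower.of_algebraMap_eq fun _ => rfl
  have hfin : ∀ i, Module.Finite ℂ[X] (D i) := fun i => (he i).1
  have hft : ∀ i, Algebra.FiniteType ℂ (D i) := fun i =>
    Algebra.FiniteType.trans (R := ℂ) (S := ℂ[X]) (A := D i) inferInstance inferInstance
  let e' : M ≃ₐ[ℂ] Π i, D i := AlgEquiv.ofRingEquiv (f := e.toRingEquiv) (fun c => by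
    change e (algebraMap ℂ M c) = _
    rw [IsScalarTower.algebraMap_apply ℂ ℂ[X] M, e.commutes]
    rfl)
  let x' : Pts (Π i, D i) := (homeo e').symm x
  -- the factor
  obtain ⟨i, hi⟩ : ∃ i, x' (Pi.single i 1) ≠ 0 := by
    by_contra h
    push Not at h
    have : Fintype I := Fintype.ofFinite I
    have h1 : ∑ i, (Pi.single i 1 : Π i, D i) = 1 := by
      funext j
      simp [Finset.sum_apply]
    have h2 := congrArg x' h1
    rw [map_sum, map_one] at h2
    simp [h] at h2
  let _ : Algebra (Π i, D i) (D i) := (Pi.evalRingHom D i).toAlgebra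
  have hst' : IsScalarTower ℂ (Π i, D i) (D i) := IsScalarTower.of_algebraMap_eq fun _ => rfl
  have hloc : IsLocalization.Away (Pi.single i 1 : Π i, D i) (D i) := by
    apply IsLocalization.away_of_isIdempotentElem
    · simp [IsIdempotentElem, ← Pi.single_mul_left]
    · apply RingHom.ker_evalRingHom
    · apply (Pi.evalRingHom D i).surjective
  let z : Pts (D i) := lift (Pi.single i 1 : Π i, D i) x' hi
  have hz : proj (Π i, D i) (D i) z = x' := proj_lift _ x' hi
  have hz0 : ∃ d : D i, d ≠ 0 ∧ z d = 0 := by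
    refine ⟨algebraMap ℂ[X] (D i) (X - Polynomial.C (coord (D i) z)), ?_, ?_⟩
    · intro h
      exact X_sub_C_ne_zero _ ((he i).2 (h.trans (map_zero _).symm))
    · rw [apply_algebraMap]
      simp
  obtain ⟨ψ, hψ⟩ := ChartDed.exists_chart z hz0
  have hj : IsOpenEmbedding (homeo e' ∘ proj (Π i, D i) (D i)) :=
    (homeo e').isOpenEmbedding.comp (isOpenEmbedding_proj (Pi.single i 1 : Π i, D i))
  have hjz : (homeo e' ∘ proj (Π i, D i) (D i)) z = x := by
    rw [Function.comp_apply, hz]
    exact (homeo e').apply_symm_apply x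
  have : Nonempty (Pts (D i)) := ⟨z⟩
  refine ⟨hj.toOpenPartialHomeomorph.symm.trans ψ, ?_⟩
  rw [OpenPartialHomeomorph.trans_source, OpenPartialHomeomorph.symm_source]
  refine ⟨⟨z, trivial, hjz⟩, ?_⟩
  have h1 : hj.toOpenPartialHomeomorph.symm x = z := by
    rw [← hjz]
    exact hj.toOpenPartialHomeomorph.left_inv trivial
  change hj.toOpenPartialHomeomorph.symm x ∈ ψ.source
  rw [h1]
  exact hψ

end Groth.Agent.Pi1.H611.ChartInt
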