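import Mathlib.Algebra.Group.MinimalAxioms
import Mathlib.GroupTheory.FreeGroup.IsFreeGroup
import Mathlib.GroupTheory.GroupAction.Transitive
import Mathlib.GroupTheory.GroupAction.Defs
import Mathlib.SetTheory.Cardinal.Finite
import Mathlib.Data.Fintype.BigOperators
import Mathlib.Data.Finite.Prod
import Mathlib.Tactic.Group

/-!
# Homomorphisms from a finite index subgroup of a free group to a finite group

`Γ` is free of rank `m` and acts transitively on a finite set `F` with `d` elements; `H` is the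
stabiliser of a point.  For every finite group `G` one has `|Hom(H, G)| * |G|^d = |G|^(d m + 1)`
(the Nielsen–Schreier index formula, in the form of a count of homomorphisms).
The proof counts the cocycles of `Γ` with values in `G^F` in two ways (Shapiro's lemma).
-/

set_option autoImplicit false

namespace Groth.Agent.Pi1.H611.CountHom

open MulAction

variable {Γ F G : Type*} [Group Γ] [MulAction Γ F] [Group G]

variable (Γ F G) in
/-- Cocycles of `Γ` with values in the functions on `F`. -/
@[ext] structure Coc where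
  /-- the cocycle -/
  c : Γ → F → G
  /-- the cocycle relation -/
  mul : ∀ γ γ' ω, c (γ * γ') ω = c γ (γ' • ω) * c γ' ω

lemma Coc.one (c : Coc Γ F G) (ω : F) : c.c 1 ω = 1 := by
  have h := c.mul 1 1 ω
  rw [one_mul, one_smul] at h
  exact left_eq_mul.1 h

lemma Coc.inv (c : Coc Γ F G) (γ : Γ) (ω : F) : c.c γ⁻¹ (γ • ω) = (c.c γ ω)⁻¹ := by
  have h := c.mul γ⁻¹ γ ω
  rw [inv_mul_cancel, c.one] at h
  exact eq_inv_of_mul_eq_one_left h.symm

variable (Γ F G) in
/-- The wreath product. -/
@[ext] structure Wr where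
  /-- the function -/
  fn : F → G
  /-- the group element -/
  el : Γ

instance : Mul (Wr Γ F G) := ⟨fun a b => ⟨fun ω => a.fn (b.el • ω) * b.fn ω, a.el * b.el⟩⟩
instance : One (Wr Γ F G) := ⟨⟨fun _ => 1, 1⟩⟩
instance : Inv (Wr Γ F G) := ⟨fun a => ⟨fun ω => (a.fn (a.el⁻¹ • ω))⁻¹, a.el⁻¹⟩⟩

@[simp] lemma Wr.mul_fn (a b : Wr Γ F G) (ω : F) : (a * b).fn ω = a.fn (b.el • ω) * b.fn ω := rfl
@[simp] lemma Wr.mul_el (a b : Wr Γ F G) : (a * b).el = a.el * b.el := rfl
omit [MulAction Γ F] in
@[simp] lemma Wr.one_fn (ω : F) : (1 : Wr Γ F G).fn ω = 1 := rfl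
omit [MulAction Γ F] in
@[simp] lemma Wr.one_el : (1 : Wr Γ F G).el = 1 := rfl
@[simp] lemma Wr.inv_fn (a : Wr Γ F G) (ω : F) : (a⁻¹).fn ω = (a.fn (a.el⁻¹ • ω))⁻¹ := rfl
@[simp] lemma Wr.inv_el (a : Wr Γ F G) : (a⁻¹).el = a.el⁻¹ := rfl

instance : Group (Wr Γ F G) :=
  Group.ofLeftAxioms
    (by
      intro a b c
      ext ω
      · simp [mul_smul, mul_assoc]
      · simp [mul_assoc])
    (by
      intro a
      ext ω <;> simp)
    (by
      intro a
      ext ω <;> simp)

/-- The projection to `Γ`. -/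
def Wr.proj : Wr Γ F G →* Γ where
  toFun := Wr.el
  map_one' := rfl
  map_mul' _ _ := rfl

/-- The homomorphism to the wreath product of a cocycle. -/
def Coc.hom (c : Coc Γ F G) : Γ →* Wr Γ F G where
  toFun γ := ⟨c.c γ, γ⟩
  map_one' := by
    ext ω
    · exact c.one ω
    · rfl
  map_mul' γ γ' := by
    ext ω
    · exact c.mul γ γ' ω
    · rfl

/-- The cocycle of a section of the wreath product. -/
def Coc.ofHom (φ : Γ →* Wr Γ F G) (h : Wr.proj.comp φ = MonoidHom.id Γ) : Coc Γ F G where
  c γ := (φ γ).fn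
  mul γ γ' ω := by
    have h1 : (φ γ').el = γ' := DFunLike.congr_fun h γ'
    rw [map_mul, Wr.mul_fn, h1]

/-- Cocycles of a free group are given by their values on a basis. -/
noncomputable def cocEquiv {ι : Type*} (b : FreeGroupBasis ι Γ) :
    Coc Γ F G ≃ (ι → F → G) where
  toFun c i := c.c (b i)
  invFun a := Coc.ofHom (b.lift (fun i => (⟨a i, b i⟩ : Wr Γ F G))) (by
    refine b.ext_hom _ _ fun i => ?_
    simp [Wr.proj])
  left_inv c := by
    have h : (b.lift (fun i => (⟨c.c (b i), b i⟩ : Wr Γ F G))) = c.hom := by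
      refine b.ext_hom _ _ fun i => ?_
      rw [FreeGroupBasis.lift_apply_apply, FreeGroupBasis.repr_apply_coe, FreeGroup.lift_apply_of]
      rfl
    ext γ ω
    simp only [Coc.ofHom, h]
    rfl
  right_inv a := by
    funext i
    simp only [Coc.ofHom, FreeGroupBasis.lift_apply_apply, FreeGroupBasis.repr_apply_coe,
      FreeGroup.lift_apply_of]

/-- Normalised functions. -/
def fnEquiv (o : F) : (F → G) ≃ G × {b : F → G // b o = 1} where
  toFun b := (b o, ⟨fun ω => b ω * (b o)⁻¹, by simp⟩)
  invFun p := fun ω => p.2.1 ω * p.1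
  left_inv b := by funext ω; simp
  right_inv p := by
    obtain ⟨x, b, hb⟩ := p
    simp [hb]

section Shapiro

variable (o : F) (u : F → Γ) (hu : ∀ ω, u ω • o = ω)

/-- The element of the stabiliser attached to `γ` and a point. -/
def hel (γ : Γ) (ω : F) : stabilizer Γ o :=
  ⟨(u (γ • ω))⁻¹ * γ * u ω, by
    rw [mem_stabilizer_iff, mul_smul, mul_smul, hu ω, inv_smul_eq_iff, hu]⟩

lemma hel_mul (γ γ' : Γ) (ω : F) :
    hel o u hu (γ * γ') ω = hel o u hu γ (γ' • ω) * hel o u hu γ' ω := by
  apply Subtype.ext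
  simp only [hel, Subgroup.coe_mul, mul_smul]
  group

lemma hel_stab (huo : u o = 1) (h : stabilizer Γ o) : hel o u hu h.1 o = h := by
  apply Subtype.ext
  simp only [hel, show (h.1 • o) = o from h.2, huo, inv_one, one_mul, mul_one]

lemma hel_u (huo : u o = 1) (ω : F) : hel o u hu (u ω) o = 1 := by
  apply Subtype.ext
  simp only [hel, hu, huo, mul_one, inv_mul_cancel, OneMemClass.coe_one]

/-- The restriction of a cocycle to the stabiliser. -/
def Coc.res (c : Coc Γ F G) : stabilizer Γ o →* G where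
  toFun h := c.c h o
  map_one' := c.one o
  map_mul' h h' := by
    have := c.mul h.1 h'.1 o
    rw [show (h'.1 • o) = o from h'.2] at this
    exact this

/-- The cocycle induced from a homomorphism of the stabiliser. -/
def Coc.ind (θ : stabilizer Γ o →* G) (b : F → G) : Coc Γ F G where
  c γ ω := b (γ • ω) * θ (hel o u hu γ ω) * (b ω)⁻¹
  mul γ γ' ω := by
    rw [hel_mul, map_mul, mul_smul]
    group

/-- Shapiro's lemma for cocycles. -/
def shapiro (huo : u o = 1) : Coc Γ F G ≃ (stabilizer Γ o →* G) × {b : F → G // b o = 1} where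
  toFun c := (c.res o, ⟨fun ω => c.c (u ω) o, by show c.c (u o) o = 1; rw [huo]; exact c.one o⟩)
  invFun p := Coc.ind o u hu p.1 p.2.1
  left_inv c := by
    ext γ ω
    have h1 := c.mul ((u (γ • ω))⁻¹ * γ) (u ω) o
    have h2 := c.mul (u (γ • ω))⁻¹ γ ω
    have h3 := c.inv (u (γ • ω)) o
    rw [hu] at h1 h3
    show c.c (u (γ • ω)) o * c.c ((u (γ • ω))⁻¹ * γ * u ω) o * (c.c (u ω) o)⁻¹ = c.c γ ω
    rw [h1, h2, h3]
    group
  right_inv p := by
    obtain ⟨θ, b, hb⟩ := p
    refine Prod.ext ?_ ?_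
    · ext h
      show b (h.1 • o) * θ (hel o u hu h.1 o) * (b o)⁻¹ = θ h
      rw [hel_stab o u hu huo, show (h.1 • o) = o from h.2, hb]
      group
    · apply Subtype.ext
      funext ω
      show b (u ω • o) * θ (hel o u hu (u ω) o) * (b o)⁻¹ = b ω
      rw [hel_u o u hu huo, map_one, hb, hu]
      group

end Shapiro

/-- The number of homomorphisms from a finite index subgroup of a free group. -/
theorem card_hom {ι : Type*} [Finite ι] (b : FreeGroupBasis ι Γ) [Finite F] [IsPretransitive Γ F]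
    (o : F) [Finite G] :
    Nat.card (stabilizer Γ o →* G) * Nat.card G ^ Nat.card F =
      Nat.card G ^ (Nat.card F * Nat.card ι + 1) := by
  classical
  have h0 : ∀ ω : F, ∃ γ : Γ, γ • o = ω := fun ω => exists_smul_eq Γ o ω
  choose u' hu' using h0
  let u : F → Γ := Function.update u' o 1
  have huo : u o = 1 := by simp [u]
  have hu : ∀ ω, u ω • o = ω := by
    intro ω
    by_cases h : ω = o
    · subst h; simp [huo]
    · simp [u, Function.update_of_ne h, hu']
  have e1 : Nat.card (Coc Γ F G) = Nat.card (ι → F → G) := Nat.card_congr (cocEquiv b)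
  have e2 : Nat.card (Coc Γ F G) =
      Nat.card (stabilizer Γ o →* G) * Nat.card {b : F → G // b o = 1} := by
    rw [Nat.card_congr (shapiro (G := G) o u hu huo), Nat.card_prod]
  have e3 : Nat.card (F → G) = Nat.card G * Nat.card {b : F → G // b o = 1} := by
    rw [Nat.card_congr (fnEquiv (G := G) o), Nat.card_prod]
  have e4 : Nat.card (F → G) = Nat.card G ^ Nat.card F := Nat.card_fun
  have e5 : Nat.card (ι → F → G) = (Nat.card G ^ Nat.card F) ^ Nat.card ι := by
    rw [Nat.card_fun, e4]
  rw [← e4, e3, mul_left_comm, ← e2, e1, e5, ← pow_mul, pow_succ, mul_comm]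

end Groth.Agent.Pi1.H611.CountHom
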